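import Mathlib
import Cfsg.Agent.Lib.Helper91.Hall

set_option autoImplicit false
set_option linter.unusedSimpArgs false
set_option linter.unusedSectionVars false
set_option linter.unusedVariables false

/-!
# Pieces QC, SC, EA of S4022
-/

namespace Cfsg.Agent.Lib.Helper18.P4022

universe u

/-- Cyclic Sylow `p`-subgroups pass to quotients. -/
theorem cyclic_quot {G : Type u} [Group G] [Finite G] (N : Subgroup G) [N.Normal] (p : ℕ)
    (hp : p.Prime) (h : ∀ P : Sylow p G, IsCyclic P) : ∀ P : Sylow p (G ⧸ N), IsCyclic P := by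
  haveI : Fact p.Prime := ⟨hp⟩
  intro P
  obtain ⟨P₀⟩ : Nonempty (Sylow p G) := inferInstance
  obtain ⟨g, hg⟩ := MulAction.exists_smul_eq (G ⧸ N)
    (P₀.mapSurjective (QuotientGroup.mk'_surjective N)) P
  haveI := h P₀
  haveI hQ : IsCyclic ↥(P₀.mapSurjective (QuotientGroup.mk'_surjective N)) :=
    isCyclic_of_surjective ((QuotientGroup.mk' N).subgroupMap (P₀ : Subgroup G))
      (MonoidHom.subgroupMap_surjective _ _)
  rw [← hg]
  exact isCyclic_of_surjective
    (Sylow.equivSMul (P₀.mapSurjective (QuotientGroup.mk'_surjective N)) g).toMonoidHom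
    (Sylow.equivSMul (P₀.mapSurjective (QuotientGroup.mk'_surjective N)) g).surjective

/-- Cyclic Sylow `p`-subgroups pass to subgroups. -/
theorem cyclic_subgroup {G : Type u} [Group G] [Finite G] (p : ℕ) (hp : p.Prime)
    (h : ∀ P : Sylow p G, IsCyclic P) (Y : Subgroup G) : ∀ P : Sylow p Y, IsCyclic P := by
  haveI : Fact p.Prime := ⟨hp⟩
  intro P
  have hP : IsPGroup p ↥((P : Subgroup Y).map Y.subtype) := P.isPGroup'.map _
  obtain ⟨Q, hQ⟩ := hP.exists_le_sylow
  haveI := h Q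
  let f : ↥(P : Subgroup Y) →* ↥(Q : Subgroup G) :=
    { toFun := fun x => ⟨((x : Y) : G), hQ (Subgroup.mem_map_of_mem _ x.2)⟩
      map_one' := rfl
      map_mul' := fun _ _ => rfl }
  have hf : Function.Injective f := by
    intro x y hxy
    apply Subtype.ext
    apply Subtype.ext
    exact congrArg (fun z : ↥(Q : Subgroup G) => (z : G)) hxy
  exact isCyclic_of_injective f hf

/-- A non-trivial finite solvable group has a non-trivial normal elementary abelian subgroup. -/
theorem exists_normal_elementary {G : Type u} [Group G] [Finite G] [Group.IsSolvable G]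
    [Nontrivial G] :
    ∃ (q : ℕ) (N : Subgroup G), q.Prime ∧ N.Normal ∧ N ≠ ⊥ ∧ (∀ x ∈ N, x ^ q = 1) ∧
      ∀ x ∈ N, ∀ y ∈ N, x * y = y * x := by
  obtain ⟨q, N, hq, hN, hc, hp, hne⟩ := Cfsg.Agent.Lib.Helper91.Hall.exists_normal_abelian_pgroup G
  haveI : Fact q.Prime := ⟨hq⟩
  have hcomm : ∀ x ∈ N, ∀ y ∈ N, x * y = y * x := by
    intro x hx y hy
    have h1 := hc.is_comm.comm (⟨x, hx⟩ : ↥N) ⟨y, hy⟩
    exact congrArg Subtype.val h1
  let M : Subgroup G :=
    { carrier := {x | x ∈ N ∧ x ^ q = 1}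
      one_mem' := ⟨N.one_mem, one_pow q⟩
      mul_mem' := by
        rintro x y ⟨hx, hx1⟩ ⟨hy, hy1⟩
        refine ⟨N.mul_mem hx hy, ?_⟩
        rw [(show Commute x y from hcomm x hx y hy).mul_pow, hx1, hy1, one_mul]
      inv_mem' := by
        rintro x ⟨hx, hx1⟩
        exact ⟨N.inv_mem hx, by rw [inv_pow, hx1, inv_one]⟩ }
  have hM : ∀ x, x ∈ M ↔ x ∈ N ∧ x ^ q = 1 := fun x => Iff.rfl
  refine ⟨q, M, hq, ?_, ?_, fun x hx => ((hM x).mp hx).2,
    fun x hx y hy => hcomm x ((hM x).mp hx).1 y ((hM y).mp hy).1⟩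
  · constructor
    intro n hn g
    obtain ⟨h1, h2⟩ := (hM n).mp hn
    refine (hM _).mpr ⟨hN.conj_mem n h1 g, ?_⟩
    rw [conj_pow, h2, mul_one, mul_inv_cancel]
  · obtain ⟨k, hk⟩ := (IsPGroup.iff_card (p := q) (G := ↥N)).mp hp
    have h1 : 1 < Nat.card ↥N := (Subgroup.one_lt_card_iff_ne_bot _).mpr hne
    have hk0 : k ≠ 0 := by
      rintro rfl
      rw [hk, pow_zero] at h1
      exact lt_irrefl _ h1
    have hdvd : q ∣ Nat.card ↥N := by
      rw [hk]
      exact dvd_pow_self q hk0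
    obtain ⟨x, hx⟩ := exists_prime_orderOf_dvd_card' q hdvd
    intro hbot
    have hxM : (x : G) ∈ M := by
      refine (hM _).mpr ⟨x.2, ?_⟩
      have h2 : x ^ q = 1 := by rw [← hx]; exact pow_orderOf_eq_one x
      exact_mod_cast congrArg Subtype.val h2
    rw [hbot, Subgroup.mem_bot] at hxM
    have hx1 : x = 1 := Subtype.ext hxM
    rw [hx1, orderOf_one] at hx
    exact hq.one_lt.ne hx

end Cfsg.Agent.Lib.Helper18.P4022
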