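import Cfsg.Agent.Lib.Helper18.CentTab

set_option autoImplicit false
set_option linter.unusedSimpArgs false
set_option linter.unusedSectionVars false
set_option linter.unusedVariables false

/-! # Centralizers of root involutions: statement forms -/

namespace Cfsg.Agent.Lib.Helper18.Cent2

open Cfsg Cfsg.Lie Cfsg.Agent.Lib.Helper18.Fast Cfsg.Agent.Lib.Helper18.Grade
  Cfsg.Agent.Lib.Helper18.Facts Cfsg.Agent.Lib.Helper18.AllRoots Cfsg.Agent.Lib.Helper18.Loop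
  Cfsg.Agent.Lib.Helper18.Weyl Cfsg.Agent.Lib.Helper18.RootSys Cfsg.Agent.Lib.Helper18.Orbit
  Cfsg.Agent.Lib.Helper18.Units Cfsg.Agent.Lib.Helper18.Sub Cfsg.Agent.Lib.Helper18.Norm
  Cfsg.Agent.Lib.Helper18.HAll Cfsg.Agent.Lib.Helper18.Torus Cfsg.Agent.Lib.Helper18.Pos
  Cfsg.Agent.Lib.Helper18.WGroup Cfsg.Agent.Lib.Helper18.BNChev Cfsg.Agent.Lib.Helper18.Mono
  Cfsg.Agent.Lib.Helper18.BNPairC Cfsg.Agent.Lib.Helper18.UOrd Cfsg.Agent.Lib.Helper18.Cox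
  Cfsg.Agent.Lib.Helper18.Long Cfsg.Agent.Lib.Helper18.Core Cfsg.Agent.Lib.Helper18.Conj
  Cfsg.Agent.Lib.Helper18.RFact Cfsg.Agent.Lib.Helper18.Cells Cfsg.Agent.Lib.Helper18.Cells2
  Cfsg.Agent.Lib.Helper18.Cent Cfsg.Agent.Lib.Helper18.CentTab

variable {A : FData} {D : ChevalleyDatum} {F : Type*} [Field F] {X : WD} {m : ℕ → ℕ → ℤ}
  {w : ℕ → ℤ} {N : ℕ} {ord rnk : ℕ → ℕ} {bz : ℕ → ℕ → ℤ} {w' : ℕ → ℤ}

/-- The generators of `LL` as a list of root indices. -/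
theorem LL_eq (hF : AFacts A D) (i₀ : ℕ) (L : List ℕ)
    (h1 : ∀ s ∈ L, ∃ j < A.rank, j ≠ i₀ ∧ s = A.neg (A.simple j))
    (h2 : ∀ j < A.rank, j ≠ i₀ → A.neg (A.simple j) ∈ L) :
    LL hF F i₀ = D.posUnipotent F ⊔ Subgroup.closure {g : GL D.Idx F | ∃ s ∈ L, ∃ c : F,
      (g : Matrix D.Idx D.Idx F) = D.x F s c} := by
  unfold LL
  congr 2
  ext g
  constructor
  · rintro ⟨j, hj, hne, c, rfl⟩
    have hlt : A.neg (A.simple j) < A.n := hF.agrees.neg_lt _ (hF.sfacts.simple_lt j hj)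
    exact ⟨_, h2 j hj hne, c, coe_xg hF (lt_nroots hF hlt) c⟩
  · rintro ⟨s, hs, c, e⟩
    obtain ⟨j, hj, hne, rfl⟩ := h1 s hs
    have hlt : A.neg (A.simple j) < A.n := hF.agrees.neg_lt _ (hF.sfacts.simple_lt j hj)
    refine ⟨j, hj, hne, c, Units.ext ?_⟩
    rw [e, coe_xg hF (lt_nroots hF hlt)]

section

variable (hC : CFacts A D X m w) (hR : RFacts A X) (hU : UFacts A w' N ord rnk bz) (hn : 0 < A.n)
  (hadd : ∀ r < D.nroots, ∀ t u : F, D.x F r t * D.x F r u = D.x F r (t + u))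
  (hinj : ∀ r < D.nroots, ∀ t : F, D.x F r t = 1 → t = 0)

include hC hR hU hn hadd hinj in
/-- The centralizer of the root involution `x_β(1)` in characteristic two. -/
theorem cent_result [CharP F 2] {β i₀ : ℕ} (hZ : ZFacts A β i₀) (L : List ℕ)
    (h1 : ∀ s ∈ L, ∃ j < A.rank, j ≠ i₀ ∧ s = A.neg (A.simple j))
    (h2 : ∀ j < A.rank, j ≠ i₀ → A.neg (A.simple j) ∈ L)
    (t : GL D.Idx F) (ht : (t : Matrix D.Idx D.Idx F) = D.x F β 1) :
    D.group F ⊓ Subgroup.centralizer {t} =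
      D.posUnipotent F ⊔ Subgroup.closure {g : GL D.Idx F | ∃ s ∈ L, ∃ c : F,
        (g : Matrix D.Idx D.Idx F) = D.x F s c} := by
  have e : t = xg hC.af F β 1 := Units.ext (by rw [ht, coe_xg hC.af (lt_nroots hC.af hZ.hβ)])
  rw [e, cent_eq hC hR hU hn hadd hinj hZ.hβ hZ.c1 hZ.c2 hZ.car hZ.hi₀, LL_eq hC.af i₀ L h1 h2]

end

/-- The closure of the root elements of three roots. -/
theorem closure_list3 (D : ChevalleyDatum) (F : Type*) [Field F] (a b c : ℕ) :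
    Subgroup.closure {g : GL D.Idx F | ∃ s ∈ [a, b, c], ∃ t : F,
      (g : Matrix D.Idx D.Idx F) = D.x F s t} =
      D.rootSubgroup F a ⊔ D.rootSubgroup F b ⊔ D.rootSubgroup F c := by
  unfold ChevalleyDatum.rootSubgroup
  rw [← Subgroup.closure_union, ← Subgroup.closure_union]
  congr 1
  ext g
  simp only [List.mem_cons, List.not_mem_nil, or_false, Set.mem_ofPred_eq, Set.mem_union]
  constructor
  · rintro ⟨s, (rfl | rfl | rfl), t, e⟩
    · exact Or.inl (Or.inl ⟨t, e⟩)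
    · exact Or.inl (Or.inr ⟨t, e⟩)
    · exact Or.inr ⟨t, e⟩
  · rintro ((⟨t, e⟩ | ⟨t, e⟩) | ⟨t, e⟩)
    · exact ⟨a, Or.inl rfl, t, e⟩
    · exact ⟨b, Or.inr (Or.inl rfl), t, e⟩
    · exact ⟨c, Or.inr (Or.inr rfl), t, e⟩

end Cfsg.Agent.Lib.Helper18.Cent2
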