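import Cfsg.Agent.Lib.Helper18.Cent
import Cfsg.Agent.Lib.Helper18.ParAll

set_option autoImplicit false

/-! # Table facts for the centralizers of root involutions -/

namespace Cfsg.Agent.Lib.Helper18.CentTab

open Cfsg Cfsg.Lie Cfsg.Agent.Lib.Helper18.Fast Cfsg.Agent.Lib.Helper18.Facts
  Cfsg.Agent.Lib.Helper18.AllRoots Cfsg.Agent.Lib.Helper18.Weyl Cfsg.Agent.Lib.Helper18.Pos
  Cfsg.Agent.Lib.Helper18.Loop Cfsg.Agent.Lib.Helper18.UOrd Cfsg.Agent.Lib.Helper18.HOrderTab
  Cfsg.Agent.Lib.Helper18.RFact Cfsg.Agent.Lib.Helper18.Par Cfsg.Agent.Lib.Helper18.BNPairC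
  Cfsg.Agent.Lib.Helper18.Cent Cfsg.Agent.Lib.Helper18.RootSys

/-- Check of the commutation of `X_β` with the positive root `γ`. -/
def chkZ1 (A : FData) (β γ : ℕ) : Bool := !(posC A γ) || γ == β || chkC2 A β γ

/-- Check of the commutation of `X_β` with `X_{-α_j}`, `j ≠ i₀`. -/
def chkZ2 (A : FData) (β i₀ j : ℕ) : Bool := j == i₀ || chkC2 A β (A.neg (A.simple j))

/-- Check that `β` is the fundamental weight of the node `i₀`. -/
def chkZ3 (A : FData) (β i₀ i : ℕ) : Bool := decide (A.car i β = if i = i₀ then 1 else 0)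

/-- The table facts for the centralizer of `x_β(1)` in characteristic two. -/
structure ZFacts (A : FData) (β i₀ : ℕ) : Prop where
  hβ : β < A.n
  hi₀ : i₀ < A.rank
  c1 : ∀ γ < A.n, PosA A γ → γ ≠ β → chkC2 A β γ = true
  c2 : ∀ j < A.rank, j ≠ i₀ → chkC2 A β (A.neg (A.simple j)) = true
  car : ∀ i < A.rank, A.car i β = if i = i₀ then 1 else 0

theorem ZFacts.of_checks {A : FData} {β i₀ : ℕ} (hβ : β < A.n) (hi₀ : i₀ < A.rank)
    (h1 : allB A.n (chkZ1 A β) = true) (h2 : allB A.rank (chkZ2 A β i₀) = true)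
    (h3 : allB A.rank (chkZ3 A β i₀) = true) : ZFacts A β i₀ := by
  refine ⟨hβ, hi₀, ?_, ?_, ?_⟩
  · intro γ hγ hpos hne
    have := allB_imp h1 γ hγ
    unfold chkZ1 at this
    rw [Bool.or_eq_true, Bool.or_eq_true] at this
    rcases this with (h | h) | h
    · rw [(posC_iff γ).mpr hpos] at h
      exact absurd h (by decide)
    · exact absurd (beq_iff_eq.mp h) hne
    · exact h
  · intro j hj hne
    have := allB_imp h2 j hj
    unfold chkZ2 at this
    rw [Bool.or_eq_true] at this
    rcases this with h | h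
    · exact absurd (beq_iff_eq.mp h) hne
    · exact h
  · intro i hi
    have := allB_imp h3 i hi
    unfold chkZ3 at this
    exact of_decide_eq_true this

/-! ### Type F4 -/

set_option maxRecDepth 100000 in
theorem z1F4a : allB 48 (chkZ1 FTabF4.fd 47) = true := by decide +kernel

set_option maxRecDepth 100000 in
theorem z2F4a : allB 4 (chkZ2 FTabF4.fd 47 3) = true := by decide +kernel

set_option maxRecDepth 100000 in
theorem z3F4a : allB 4 (chkZ3 FTabF4.fd 47 3) = true := by decide +kernel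

theorem zF4a : ZFacts FTabF4.fd 47 3 := ZFacts.of_checks (by decide) (by decide) z1F4a z2F4a z3F4a

set_option maxRecDepth 100000 in
theorem z1F4b : allB 48 (chkZ1 FTabF4.fd 44) = true := by decide +kernel

set_option maxRecDepth 100000 in
theorem z2F4b : allB 4 (chkZ2 FTabF4.fd 44 0) = true := by decide +kernel

set_option maxRecDepth 100000 in
theorem z3F4b : allB 4 (chkZ3 FTabF4.fd 44 0) = true := by decide +kernel

theorem zF4b : ZFacts FTabF4.fd 44 0 := ZFacts.of_checks (by decide) (by decide) z1F4b z2F4b z3F4b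

/-! ### Type E6 -/

set_option maxRecDepth 100000 in
theorem z1E6 : allB 72 (chkZ1 FTabE6.fd 71) = true := by decide +kernel

set_option maxRecDepth 100000 in
theorem z2E6 : allB 6 (chkZ2 FTabE6.fd 71 1) = true := by decide +kernel

set_option maxRecDepth 100000 in
theorem z3E6 : allB 6 (chkZ3 FTabE6.fd 71 1) = true := by decide +kernel

theorem zE6 : ZFacts FTabE6.fd 71 1 := ZFacts.of_checks (by decide) (by decide) z1E6 z2E6 z3E6

/-! ### Type E7 -/

set_option maxRecDepth 100000 in
theorem z1E7 : allB 126 (chkZ1 FTabE7.fd 125) = true := by decide +kernel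

set_option maxRecDepth 100000 in
theorem z2E7 : allB 7 (chkZ2 FTabE7.fd 125 0) = true := by decide +kernel

set_option maxRecDepth 100000 in
theorem z3E7 : allB 7 (chkZ3 FTabE7.fd 125 0) = true := by decide +kernel

theorem zE7 : ZFacts FTabE7.fd 125 0 := ZFacts.of_checks (by decide) (by decide) z1E7 z2E7 z3E7

end Cfsg.Agent.Lib.Helper18.CentTab
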