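import Cfsg.Agent.Lib.Helper18.CentTab

set_option autoImplicit false

/-! # Table facts for the centralizer of the highest root involution, type E8 -/

namespace Cfsg.Agent.Lib.Helper18.CentTabE8

open Cfsg Cfsg.Lie Cfsg.Agent.Lib.Helper18.Fast Cfsg.Agent.Lib.Helper18.Facts
  Cfsg.Agent.Lib.Helper18.Loop Cfsg.Agent.Lib.Helper18.Cent Cfsg.Agent.Lib.Helper18.CentTab

/-! ### Type E8 -/

set_option maxRecDepth 100000 in
theorem z1E8 : allB 240 (chkZ1 FTabE8.fd 239) = true := by decide +kernel

set_option maxRecDepth 100000 in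
theorem z2E8 : allB 8 (chkZ2 FTabE8.fd 239 7) = true := by decide +kernel

set_option maxRecDepth 100000 in
theorem z3E8 : allB 8 (chkZ3 FTabE8.fd 239 7) = true := by decide +kernel

theorem zE8 : ZFacts FTabE8.fd 239 7 := ZFacts.of_checks (by decide) (by decide) z1E8 z2E8 z3E8

end Cfsg.Agent.Lib.Helper18.CentTabE8
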