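import Mathlib
import Cfsg.Agent.Lib.Helper18.Cent
import Cfsg.Agent.Lib.Helper18.Count

set_option autoImplicit false
set_option linter.unusedSimpArgs false
set_option linter.unusedSectionVars false
set_option linter.unusedVariables false

/-!
# Pairs of conjugates of the highest root subgroup in characteristic two

For the highest root `β` (with `X_β` central in `U`) and `g` in the Chevalley group, the subgroup
generated by `X_β` and `g X_β g⁻¹` is a `2`-group or conjugate to `⟨X_β, X_{-β}⟩`.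
-/

namespace Cfsg.Agent.Lib.Helper18.Pair

open Cfsg Cfsg.Lie Cfsg.Agent.Lib.Helper18.Fast Cfsg.Agent.Lib.Helper18.Grade
  Cfsg.Agent.Lib.Helper18.Facts Cfsg.Agent.Lib.Helper18.AllRoots Cfsg.Agent.Lib.Helper18.Loop
  Cfsg.Agent.Lib.Helper18.Weyl Cfsg.Agent.Lib.Helper18.RootSys Cfsg.Agent.Lib.Helper18.Orbit
  Cfsg.Agent.Lib.Helper18.Units Cfsg.Agent.Lib.Helper18.Sub Cfsg.Agent.Lib.Helper18.Norm
  Cfsg.Agent.Lib.Helper18.HAll Cfsg.Agent.Lib.Helper18.Torus Cfsg.Agent.Lib.Helper18.Pos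
  Cfsg.Agent.Lib.Helper18.WGroup Cfsg.Agent.Lib.Helper18.BNChev Cfsg.Agent.Lib.Helper18.Mono
  Cfsg.Agent.Lib.Helper18.BNPairC Cfsg.Agent.Lib.Helper18.UOrd Cfsg.Agent.Lib.Helper18.Cox
  Cfsg.Agent.Lib.Helper18.Long Cfsg.Agent.Lib.Helper18.Core Cfsg.Agent.Lib.Helper18.Conj
  Cfsg.Agent.Lib.Helper18.RFact Cfsg.Agent.Lib.Helper18.BNCell Cfsg.Agent.Lib.Helper18.Vec
  Cfsg.Agent.Lib.Helper18.XMat Cfsg.Agent.Lib.Helper18.Cells Cfsg.Agent.Lib.Helper18.Cox2
  Cfsg.Agent.Lib.Helper18.Cells2 Cfsg.Agent.Lib.Helper18.Cent Cfsg.Agent.Lib.Helper18.Par2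

variable {A : FData} {D : ChevalleyDatum} {F : Type*} [Field F] {X : WD} {m : ℕ → ℕ → ℤ}
  {w : ℕ → ℤ} {N : ℕ} {ord rnk : ℕ → ℕ} {bz : ℕ → ℕ → ℤ} {w' : ℕ → ℤ}

theorem rootSubgroup_eq (hF : AFacts A D) {s : ℕ} (hs : s < A.n) :
    D.rootSubgroup F s = Subgroup.closure (Set.range (xg hF F s)) := by
  unfold ChevalleyDatum.rootSubgroup
  congr 1
  ext g
  constructor
  · rintro ⟨t, e⟩
    exact ⟨t, Units.ext (by rw [e, coe_xg hF (lt_nroots hF hs)])⟩
  · rintro ⟨t, rfl⟩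
    exact ⟨t, coe_xg hF (lt_nroots hF hs) t⟩

/-- Conjugation carrying one root subgroup onto another. -/
theorem map_conj_root (hF : AFacts A D) {k : GL D.Idx F} {s s' : ℕ} (hs : s < A.n)
    (hs' : s' < A.n) {c : F} (hc : c ≠ 0)
    (h : ∀ t : F, k * xg hF F s t * k⁻¹ = xg hF F s' (c * t)) :
    (D.rootSubgroup F s).map (MulAut.conj k).toMonoidHom = D.rootSubgroup F s' := by
  rw [rootSubgroup_eq hF hs, rootSubgroup_eq hF hs', MonoidHom.map_closure]
  congr 1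
  ext g
  constructor
  · rintro ⟨_, ⟨t, rfl⟩, rfl⟩
    exact ⟨c * t, (h t).symm⟩
  · rintro ⟨t, rfl⟩
    refine ⟨xg hF F s (c⁻¹ * t), ⟨_, rfl⟩, ?_⟩
    show k * xg hF F s (c⁻¹ * t) * k⁻¹ = _
    rw [h, ← mul_assoc, mul_inv_cancel₀ hc, one_mul]

theorem conj_mul_hom {G : Type*} [Group G] (a b : G) :
    (MulAut.conj (a * b)).toMonoidHom =
      (MulAut.conj a).toMonoidHom.comp (MulAut.conj b).toMonoidHom := by
  ext x
  simp [MulAut.conj_apply, mul_assoc]

theorem root_le_U (hF : AFacts A D) {s : ℕ} (hs : s < A.n) (hpos : PosA A s) :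
    D.rootSubgroup F s ≤ D.posUnipotent F := by
  rw [rootSubgroup_eq hF hs, Subgroup.closure_le]
  rintro _ ⟨t, rfl⟩
  exact xg_pos_mem hF hs hpos t

section

variable (hC : CFacts A D X m w) (hR : RFacts A X) (hU : UFacts A w' N ord rnk bz) (hn : 0 < A.n)
  (hadd : ∀ r < D.nroots, ∀ t u : F, D.x F r t * D.x F r u = D.x F r (t + u))
  (hinj : ∀ r < D.nroots, ∀ t : F, D.x F r t = 1 → t = 0)
  [CharP F 2] {β : ℕ} (hβ : β < A.n)
  (hc1 : ∀ γ < A.n, PosA A γ → γ ≠ β → chkC2 A β γ = true)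
  (hcert : ∀ γ < A.n, γ ≠ A.neg β → ∃ v : List ℕ, (∀ i ∈ v, i < A.rank) ∧
    PosA A (wperm X v β) ∧ PosA A (wperm X v γ))

include hC hadd hβ hc1 in
/-- `B` normalizes `X_β`. -/
theorem borel_conj {b : GL D.Idx F} (hb : b ∈ D.borelSubgroup F) :
    (D.rootSubgroup F β).map (MulAut.conj b).toMonoidHom = D.rootSubgroup F β := by
  obtain ⟨u, hu, h, hh, rfl⟩ := borel_decomp hC hadd hb
  obtain ⟨c, hc, -, ha⟩ := H_act hC hβ hh
  refine map_conj_root hC.af hβ hβ (c := chi A c β) (chi_ne_zero hc β) (fun t => ?_)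
  have h1 := ha t
  have h2 := U_comm hC hadd hβ hc1 hu (chi A c β * t)
  calc u * h * xg hC.af F β t * (u * h)⁻¹ = u * (h * xg hC.af F β t) * h⁻¹ * u⁻¹ := by group
    _ = (u * xg hC.af F β (chi A c β * t)) * u⁻¹ := by rw [h1]; group
    _ = xg hC.af F β (chi A c β * t) := by rw [h2]; group

include hC hR hU hn hadd hinj hβ hc1 hcert in
theorem pair_main [Fintype F] {g : GL D.Idx F} (hg : g ∈ D.group F) :
    IsPGroup 2 ↥(D.rootSubgroup F β ⊔ (D.rootSubgroup F β).map (MulAut.conj g).toMonoidHom) ∨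
    ∃ h ∈ D.group F, (D.rootSubgroup F β ⊔
      (D.rootSubgroup F β).map (MulAut.conj g).toMonoidHom).map (MulAut.conj h).toMonoidHom =
        D.rootSubgroup F β ⊔ D.rootSubgroup F (A.neg β) := by
  obtain ⟨wd, hwd, hgc⟩ := exists_cell hC hadd hinj hg
  unfold cell at hgc
  rw [DoubleCoset.mem_doubleCoset] at hgc
  obtain ⟨b₁, hb₁, b₂, hb₂, rfl⟩ := hgc
  obtain ⟨ε, hε, he⟩ := nw_conj (F := F) hC.af hC.wf (plain wd) (plain_lt hwd) hβ
  rw [plain_fst] at he
  have hγ : wperm X wd β < A.n := wperm_lt hC.wf hwd hβ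
  have e1 : (D.rootSubgroup F β).map (MulAut.conj (b₁ * nw hC.af F (plain wd) * b₂)).toMonoidHom =
      (D.rootSubgroup F (wperm X wd β)).map (MulAut.conj b₁).toMonoidHom := by
    rw [conj_mul_hom, conj_mul_hom, ← Subgroup.map_map, ← Subgroup.map_map,
      borel_conj hC hadd hβ hc1 hb₂, map_conj_root hC.af hβ hγ hε he]
  have e2 : D.rootSubgroup F β ⊔
      (D.rootSubgroup F β).map (MulAut.conj (b₁ * nw hC.af F (plain wd) * b₂)).toMonoidHom =
      (D.rootSubgroup F β ⊔ D.rootSubgroup F (wperm X wd β)).map (MulAut.conj b₁).toMonoidHom := by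
    rw [e1, Subgroup.map_sup, borel_conj hC hadd hβ hc1 hb₁]
  rw [e2]
  by_cases hcase : wperm X wd β = A.neg β
  · right
    refine ⟨b₁⁻¹, Subgroup.inv_mem _ (borelSubgroup_le hC.af F hb₁), ?_⟩
    rw [Subgroup.map_map, ← conj_mul_hom, inv_mul_cancel, hcase]
    have : (MulAut.conj (1 : GL D.Idx F)).toMonoidHom = MonoidHom.id _ := by
      ext x
      simp
    rw [this, Subgroup.map_id]
  · left
    obtain ⟨v, hv, hp1, hp2⟩ := hcert _ hγ hcase
    obtain ⟨ε1, hε1, he1⟩ := nw_conj (F := F) hC.af hC.wf (plain v) (plain_lt hv) hβ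
    obtain ⟨ε2, hε2, he2⟩ := nw_conj (F := F) hC.af hC.wf (plain v) (plain_lt hv) hγ
    rw [plain_fst] at he1 he2
    have hU2 : IsPGroup 2 ↥(D.posUnipotent F) := by
      obtain ⟨k, -, hk⟩ := FiniteField.card F 2
      have hcard := card_U hC hadd hU (F := F)
      rw [hk, ← pow_mul] at hcard
      exact IsPGroup.of_card hcard
    have hle : (D.rootSubgroup F β ⊔ D.rootSubgroup F (wperm X wd β)).map
        (MulAut.conj (nw hC.af F (plain v))).toMonoidHom ≤ D.posUnipotent F := by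
      rw [Subgroup.map_sup,
        map_conj_root hC.af hβ (wperm_lt hC.wf hv hβ) hε1 he1,
        map_conj_root hC.af hγ (wperm_lt hC.wf hv hγ) hε2 he2]
      exact sup_le (root_le_U hC.af (wperm_lt hC.wf hv hβ) hp1)
        (root_le_U hC.af (wperm_lt hC.wf hv hγ) hp2)
    have hM : IsPGroup 2 ↥(D.rootSubgroup F β ⊔ D.rootSubgroup F (wperm X wd β)) := by
      have h1 := hU2.comap_of_injective (MulAut.conj (nw hC.af F (plain v))).toMonoidHom
        (MulAut.conj (nw hC.af F (plain v))).injective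
      exact h1.to_le (Subgroup.map_le_iff_le_comap.mp hle)
    exact hM.map _

end

end Cfsg.Agent.Lib.Helper18.Pair
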