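import Mathlib
import Cfsg.Agent.Lib.Helper18.Par2

set_option autoImplicit false
set_option linter.unusedSimpArgs false
set_option linter.unusedSectionVars false
set_option linter.unusedVariables false

namespace Cfsg.Agent.Lib.Helper18.Par3

open Cfsg Cfsg.Lie Cfsg.Agent.Lib.Helper18.Fast Cfsg.Agent.Lib.Helper18.Grade
  Cfsg.Agent.Lib.Helper18.Facts Cfsg.Agent.Lib.Helper18.AllRoots Cfsg.Agent.Lib.Helper18.Loop
  Cfsg.Agent.Lib.Helper18.Weyl Cfsg.Agent.Lib.Helper18.RootSys Cfsg.Agent.Lib.Helper18.Orbit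
  Cfsg.Agent.Lib.Helper18.Units Cfsg.Agent.Lib.Helper18.Sub Cfsg.Agent.Lib.Helper18.Norm
  Cfsg.Agent.Lib.Helper18.HAll Cfsg.Agent.Lib.Helper18.Torus Cfsg.Agent.Lib.Helper18.Pos
  Cfsg.Agent.Lib.Helper18.WGroup Cfsg.Agent.Lib.Helper18.BNChev Cfsg.Agent.Lib.Helper18.Mono
  Cfsg.Agent.Lib.Helper18.BNPairC Cfsg.Agent.Lib.Helper18.UOrd Cfsg.Agent.Lib.Helper18.Cox
  Cfsg.Agent.Lib.Helper18.Long Cfsg.Agent.Lib.Helper18.Core Cfsg.Agent.Lib.Helper18.Conj
  Cfsg.Agent.Lib.Helper18.RFact Cfsg.Agent.Lib.Helper18.BNCell Cfsg.Agent.Lib.Helper18.Vec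
  Cfsg.Agent.Lib.Helper18.XMat Cfsg.Agent.Lib.Helper18.Cells Cfsg.Agent.Lib.Helper18.Cox2
  Cfsg.Agent.Lib.Helper18.Cells2 Cfsg.Agent.Lib.Helper18.Cox3 Cfsg.Agent.Lib.Helper18.HOrder
  Cfsg.Agent.Lib.Helper18.HOrderTab Cfsg.Agent.Lib.Helper18.Tri Cfsg.Agent.Lib.Helper18.Par
  Cfsg.Agent.Lib.Helper18.Par2

variable {A : FData} {D : ChevalleyDatum} {F : Type*} [Field F] {X : WD} {m : ℕ → ℕ → ℤ}
  {w : ℕ → ℤ} {N : ℕ} {ord rnk : ℕ → ℕ} {bz : ℕ → ℕ → ℤ} {w' : ℕ → ℤ} {c : ℤ} {fw : ℕ → ℕ → ℤ}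

section

variable (hC : CFacts A D X m w) (hR : RFacts A X) (hU : UFacts A w' N ord rnk bz) (hn : 0 < A.n)
  (hDs : DFacts A) (hJf : JFacts A c fw)
  (hadd : ∀ r < D.nroots, ∀ t u : F, D.x F r t * D.x F r u = D.x F r (t + u))
  (hinj : ∀ r < D.nroots, ∀ t : F, D.x F r t = 1 → t = 0)

theorem xg_mem_rad (hF : AFacts A D) {J : Set ℕ} {s : ℕ} (hs : s < A.n) (hpos : PosA A s)
    (hJ : ¬ InJ A J s) (t : F) : xg hF F s t ∈ D.unipotentRadical F J :=
  Subgroup.subset_closure ⟨s, t, (posA_iff hF hs).mp hpos,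
    fun h => hJ ((inRootSub_iff hF J (lt_nroots hF hs)).mp h), coe_xg hF (lt_nroots hF hs) t⟩

include hR hU hn hadd in
/-- Positive root elements normalize `U_J`. -/
theorem xg_conj_rad {J : Set ℕ} {r : ℕ} (hr : r < A.n) (hpos : PosA A r) (t : F)
    {u : GL D.Idx F} (hu : u ∈ D.unipotentRadical F J) :
    xg hC.af F r t * u * (xg hC.af F r t)⁻¹ ∈ D.unipotentRadical F J := by
  have hF := hC.af
  unfold ChevalleyDatum.unipotentRadical at hu
  refine conj_mem_of_closure _ ?_ hu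
  rintro g ⟨s, v, hs, hsJ, hg⟩
  have hs' : s < A.n := lt_n hF hs.1
  have hposs : PosA A s := (posA_iff hF hs').mpr hs
  have hsJ' : ¬ InJ A J s := fun h => hsJ ((inRootSub_iff hF J hs.1).mpr h)
  have e : g = xg hF F s v := Units.ext (by rw [hg, coe_xg hF hs.1])
  rw [e]
  by_cases hrs : s = r
  · subst hrs
    have : xg hF F s t * xg hF F s v * (xg hF F s t)⁻¹ = xg hF F s v := by
      rw [← xg_neg hadd hF s t, ← xg_add hadd hF, ← xg_add hadd hF]
      congr 1
      ring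
    rw [this]
    exact xg_mem_rad hF hs' hposs hsJ' v
  · have hne2 : s ≠ A.neg r := by
      rintro rfl
      exact ((rs hC hR hU hn).pos_neg ⟨r, hr⟩).mp hposs hpos
    have hcomm := hC.comm (F := F) r hr s hs' hrs hne2 (-t) v
    rw [xg_neg hadd hF r t, inv_inv] at hcomm
    refine Subgroup.closure_mono ?_ hcomm
    rintro _ ⟨γ, v', ⟨hγ, k, l, hl, hkl⟩, rfl⟩
    unfold InJ at hsJ'
    push Not at hsJ'
    obtain ⟨i, hi, hiJ, hne⟩ := hsJ'
    have hmr := (posA_iff_m hC.mf hr).mp hpos i hi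
    have hms : 0 < m s i := by
      have h1 := hposs i hi
      exact (hC.mf.sgn s hs' i hi).1.mp (by omega)
    have hmγ : 0 < m γ i := by
      rw [hkl i hi]
      have h1 : (1 : ℤ) ≤ (l : ℤ) := by exact_mod_cast hl
      have h2 : (0 : ℤ) ≤ (k : ℤ) := by positivity
      nlinarith
    have hposγ : PosA A γ := posA_of_coord hC.mf hγ hi hmγ
    have hγJ : ¬ InJ A J γ := by
      intro h
      have h1 := h i hi hiJ
      have h2 := (hC.mf.sgn γ hγ i hi).1.mpr hmγ
      omega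
    exact ⟨γ, v', (posA_iff hF hγ).mp hposγ,
      fun h => hγJ ((inRootSub_iff hF J (lt_nroots hF hγ)).mp h), coe_xg hF (lt_nroots hF hγ) v'⟩

include hR hU hn in
/-- The reflections of `J` normalize `U_J`. -/
theorem ng_conj_rad {J : Set ℕ} {j : ℕ} (hj : j ∈ J) (hjl : j < A.rank) {u : GL D.Idx F}
    (hu : u ∈ D.unipotentRadical F J) :
    ng hC.af F j * u * (ng hC.af F j)⁻¹ ∈ D.unipotentRadical F J ∧
      (ng hC.af F j)⁻¹ * u * ng hC.af F j ∈ D.unipotentRadical F J := by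
  have hF := hC.af
  have key : ∀ s, ∀ hs : s < A.n, PosA A s → ¬ InJ A J s →
      PosA A (X.W j s) ∧ ¬ InJ A J (X.W j s) := by
    intro s hs hposs hsJ
    have hne : (⟨s, hs⟩ : Fin A.n) ≠ (rs hC hR hU hn).α j := by
      intro e
      apply hsJ
      have e' := congrArg Fin.val e
      rw [rs_α hC hR hU hn hjl] at e'
      have : s = A.simple j := e'
      rw [this]
      exact (inJ_simple hC hR hj hjl).1
    have h1 := ((rs hC hR hU hn).pos_s hjl (r := ⟨s, hs⟩) hposs hne).1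
    rw [rs_pos_iff, rs_s_apply hC hR hU hn hjl] at h1
    refine ⟨h1, ?_⟩
    intro h
    apply hsJ
    have h2 : (rs hC hR hU hn).inJ J ((rs hC hR hU hn).s j ⟨s, hs⟩) := by
      intro k hk hkJ
      show A.cor ((rs hC hR hU hn).s j ⟨s, hs⟩).val k = 0
      rw [rs_s_apply hC hR hU hn hjl]
      exact h k hk hkJ
    exact ((rs hC hR hU hn).inJ_apply ((rs hC hR hU hn).s_mem hj hjl)).mp h2
  unfold ChevalleyDatum.unipotentRadical at hu
  constructor
  · refine conj_mem_of_closure _ ?_ hu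
    rintro g ⟨s, v, hs, hsJ, hg⟩
    have hs' : s < A.n := lt_n hF hs.1
    have e : g = xg hF F s v := Units.ext (by rw [hg, coe_xg hF hs.1])
    obtain ⟨k1, k2⟩ := key s hs' ((posA_iff hF hs').mpr hs)
      (fun h => hsJ ((inRootSub_iff hF J hs.1).mpr h))
    rw [e, ng_conj hF hC.wf hjl hs']
    exact xg_mem_rad hF (hC.wf.lt j hjl s hs') k1 k2 _
  · have h2 : (ng hF F j)⁻¹ * u * ng hF F j = (ng hF F j)⁻¹ * u * ((ng hF F j)⁻¹)⁻¹ := by
      rw [inv_inv]
    rw [h2]
    refine conj_mem_of_closure _ ?_ hu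
    rintro g ⟨s, v, hs, hsJ, hg⟩
    have hs' : s < A.n := lt_n hF hs.1
    have e : g = xg hF F s v := Units.ext (by rw [hg, coe_xg hF hs.1])
    obtain ⟨k1, k2⟩ := key s hs' ((posA_iff hF hs').mpr hs)
      (fun h => hsJ ((inRootSub_iff hF J hs.1).mpr h))
    rw [e, inv_inv, ng_inv_conj hF hC.wf hjl hs']
    exact xg_mem_rad hF (hC.wf.lt j hjl s hs') k1 k2 _

include hC hR hU hn hadd in
/-- `P_J` normalizes `U_J`. -/
theorem par_le_normalizer (J : Set ℕ) :
    D.parabolicSubgroup F J ≤ Subgroup.normalizer (D.unipotentRadical F J : Set (GL D.Idx F)) := by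
  have hF := hC.af
  unfold ChevalleyDatum.parabolicSubgroup ChevalleyDatum.borelSubgroup
  refine sup_le (sup_le ?_ ?_) ?_
  · unfold ChevalleyDatum.posUnipotent
    rw [Subgroup.closure_le]
    rintro g ⟨r, t, hr, hg⟩
    have hr' : r < A.n := lt_n hF hr.1
    have hpos : PosA A r := (posA_iff hF hr').mpr hr
    have e : g = xg hF F r t := Units.ext (by rw [hg, coe_xg hF hr.1])
    rw [e]
    apply mem_normalizer_of_conj
    · intro u hu
      exact xg_conj_rad hC hR hU hn hadd hr' hpos t hu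
    · intro u hu
      have := xg_conj_rad hC hR hU hn hadd hr' hpos (-t) hu
      rwa [xg_neg hadd hF r t, inv_inv] at this
  · have h := diag_le_normalizer (F := F) hF (fun r => D.IsPosRoot r ∧ ¬ D.InRootSub J r)
      (fun _ h => h.1.1)
    have e : {g : GL D.Idx F | ∃ (r : ℕ) (t : F), (D.IsPosRoot r ∧ ¬ D.InRootSub J r) ∧
        (g : Matrix D.Idx D.Idx F) = D.x F r t} =
        {g : GL D.Idx F | ∃ (r : ℕ) (t : F), D.IsPosRoot r ∧ ¬ D.InRootSub J r ∧
        (g : Matrix D.Idx D.Idx F) = D.x F r t} := by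
      ext g
      simp only [Set.mem_setOf_eq, and_assoc]
    rw [e] at h
    exact h
  · rw [Subgroup.closure_le]
    rintro g ⟨j, hj, hjl, hg⟩
    have hjl' : j < A.rank := by rw [← hF.agrees.rank_eq]; exact hjl
    have e : g = ng hF F j := Units.ext (by rw [hg, coe_ng hF hjl', simple_eq_fast hF hjl])
    rw [e]
    apply mem_normalizer_of_conj
    · intro u hu
      exact (ng_conj_rad hC hR hU hn hj hjl' hu).1
    · intro u hu
      exact (ng_conj_rad hC hR hU hn hj hjl' hu).2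

include hC hR hU hn hDs in
/-- `U_J L_J = P_J`. -/
theorem rad_sup_levi (J : Set ℕ) :
    D.unipotentRadical F J ⊔ D.leviSubgroup F J = D.parabolicSubgroup F J := by
  have hF := hC.af
  apply le_antisymm
  · refine sup_le ?_ (sup_le (H_le_par J) ?_)
    · refine le_trans ?_ (U_le_par J)
      apply Subgroup.closure_mono
      rintro g ⟨r, t, hr, _, hg⟩
      exact ⟨r, t, hr, hg⟩
    · rw [Subgroup.closure_le]
      rintro g ⟨r, t, hr, hg⟩
      have hr' := hr.1
      have e : g = xg hF F r t := Units.ext (by rw [hg, coe_xg hF hr'])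
      rw [e]
      exact xg_mem_par hC hR hU hn hDs (lt_n hF hr') ((inRootSub_iff hF J hr').mp hr) t
  · unfold ChevalleyDatum.parabolicSubgroup ChevalleyDatum.borelSubgroup
    refine sup_le (sup_le ?_ ?_) ?_
    · unfold ChevalleyDatum.posUnipotent
      rw [Subgroup.closure_le]
      rintro g ⟨r, t, hr, hg⟩
      by_cases hJ : D.InRootSub J r
      · exact Subgroup.mem_sup_right (Subgroup.mem_sup_right
          (Subgroup.subset_closure ⟨r, t, hJ, hg⟩))
      · exact Subgroup.mem_sup_left (Subgroup.subset_closure ⟨r, t, hr, hJ, hg⟩)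
    · exact le_trans (le_sup_left (b := Subgroup.closure {g : GL D.Idx F | ∃ (r : ℕ) (t : F),
        D.InRootSub J r ∧ (g : Matrix D.Idx D.Idx F) = D.x F r t})) le_sup_right
    · rw [Subgroup.closure_le]
      rintro g ⟨j, hj, hjl, hg⟩
      have hjl' : j < A.rank := by rw [← hF.agrees.rank_eq]; exact hjl
      have hsl := hF.sfacts.simple_lt j hjl'
      have hnsl := hF.agrees.neg_lt _ hsl
      have e : g = ng hF F j := Units.ext (by rw [hg, coe_ng hF hjl', simple_eq_fast hF hjl])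
      have hI := inJ_simple hC hR hj hjl'
      have h1 : ∀ t : F, xg hF F (A.simple j) t ∈ D.leviSubgroup F J :=
        fun t => Subgroup.mem_sup_right (Subgroup.subset_closure ⟨A.simple j, t,
          (inRootSub_iff hF J (lt_nroots hF hsl)).mpr hI.1, coe_xg hF (lt_nroots hF hsl) t⟩)
      have h2 : ∀ t : F, xg hF F (A.neg (A.simple j)) t ∈ D.leviSubgroup F J :=
        fun t => Subgroup.mem_sup_right (Subgroup.subset_closure ⟨A.neg (A.simple j), t,
          (inRootSub_iff hF J (lt_nroots hF hnsl)).mpr hI.2, coe_xg hF (lt_nroots hF hnsl) t⟩)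
      rw [e, ng_eq hF hjl', nU_eq_xg hF hsl]
      apply Subgroup.mem_sup_right
      exact Subgroup.mul_mem _ (Subgroup.mul_mem _ (h1 _) (h2 _)) (h1 _)

include hC hJf in
/-- `U_J` is unitriangular for the grading attached to `J`. -/
theorem rad_le_utri (J : Set ℕ) :
    D.unipotentRadical F J ≤
      utriSubgroup (fun b : D.Idx => lamE A (wJ A fw J) (enc D b)) F := by
  have hF := hC.af
  unfold ChevalleyDatum.unipotentRadical
  rw [Subgroup.closure_le]
  rintro g ⟨r, t, hr, hJ, hg⟩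
  have hr' : r < A.n := lt_n hF hr.1
  show UTri (fun b : D.Idx => lamE A (wJ A fw J) (enc D b)) (g : Matrix D.Idx D.Idx F)
  rw [hg]
  exact x_utri hF.agrees hr' (graded_lamE hF.sfacts hr' _)
    (lamJ_pos hC.mf hJf J hr' ((posA_iff hF hr').mpr hr)
      (fun h => hJ ((inRootSub_iff hF J hr.1).mpr h))) t

include hC hJf hadd in
/-- `L_J` preserves the grading attached to `J`. -/
theorem levi_blk (J : Set ℕ) {g : GL D.Idx F} (hg : g ∈ D.leviSubgroup F J) :
    Blk (fun b : D.Idx => lamE A (wJ A fw J) (enc D b)) (g : Matrix D.Idx D.Idx F) := by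
  have hF := hC.af
  have hx : ∀ r, D.InRootSub J r → ∀ t : F,
      Blk (fun b : D.Idx => lamE A (wJ A fw J) (enc D b)) (D.x F r t) := by
    intro r hr t
    have hr' : r < A.n := lt_n hF hr.1
    have hgr := graded_lamE hF.sfacts hr' (wJ A fw J)
    rw [lamJ_zero hC.mf hJf J hr' ((inRootSub_iff hF J hr.1).mp hr)] at hgr
    exact x_blk hF.agrees hr' hgr t
  unfold ChevalleyDatum.leviSubgroup at hg
  rw [← Subgroup.closure_eq (D.diagonalSubgroup F), ← Subgroup.closure_union] at hg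
  induction hg using Subgroup.closure_induction'' with
  | mem x hx' =>
    rcases hx' with hx' | ⟨r, t, hr, hx'⟩
    · obtain ⟨c', _, e⟩ := exists_tor_of_mem hF x hx'
      rw [e]
      exact Blk.diagonal _
    · rw [hx']
      exact hx r hr t
  | inv_mem x hx' =>
    rcases hx' with hx' | ⟨r, t, hr, hx'⟩
    · obtain ⟨c', _, e⟩ := exists_tor_of_mem hF x⁻¹ (Subgroup.inv_mem _ hx')
      rw [e]
      exact Blk.diagonal _
    · have e : x = xg hF F r t := Units.ext (by rw [hx', coe_xg hF hr.1])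
      rw [e, ← xg_neg hadd hF r t, coe_xg hF hr.1]
      exact hx r hr (-t)
  | one => exact Blk.one
  | mul x y _ _ ihx ihy =>
    rw [Units.val_mul]
    exact Blk.mul ihx ihy

include hC hJf hadd in
/-- `U_J ∩ L_J = 1`. -/
theorem rad_inf_levi (J : Set ℕ) : D.unipotentRadical F J ⊓ D.leviSubgroup F J = ⊥ := by
  rw [eq_bot_iff]
  rintro g ⟨h1, h2⟩
  have hu : UTri (fun b : D.Idx => lamE A (wJ A fw J) (enc D b)) (g : Matrix D.Idx D.Idx F) :=
    rad_le_utri hC hJf J h1
  have hb := levi_blk hC hJf hadd J h2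
  rw [Subgroup.mem_bot]
  apply Units.ext
  ext b b'
  by_cases e : b = b'
  · subst e
    rw [hu.2 b]
    simp
  · rw [Units.val_one, Matrix.one_apply_ne e]
    by_cases hle : lamE A (wJ A fw J) (enc D b) ≤ lamE A (wJ A fw J) (enc D b')
    · exact hu.1 b b' e hle
    · exact hb b b' (fun h => hle (le_of_eq h))

end

end Cfsg.Agent.Lib.Helper18.Par3
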