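import Mathlib
import Cfsg.Agent.Lib.Helper18.Par3

set_option autoImplicit false
set_option linter.unusedSimpArgs false
set_option linter.unusedSectionVars false
set_option linter.unusedVariables false

namespace Cfsg.Agent.Lib.Helper18.Par4

open Cfsg Cfsg.Lie Cfsg.Agent.Lib.Helper18.Fast Cfsg.Agent.Lib.Helper18.Grade
  Cfsg.Agent.Lib.Helper18.Facts Cfsg.Agent.Lib.Helper18.AllRoots Cfsg.Agent.Lib.Helper18.Loop
  Cfsg.Agent.Lib.Helper18.Weyl Cfsg.Agent.Lib.Helper18.RootSys Cfsg.Agent.Lib.Helper18.Orbit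
  Cfsg.Agent.Lib.Helper18.Units Cfsg.Agent.Lib.Helper18.Sub Cfsg.Agent.Lib.Helper18.Norm
  Cfsg.Agent.Lib.Helper18.HAll Cfsg.Agent.Lib.Helper18.Torus Cfsg.Agent.Lib.Helper18.Pos
  Cfsg.Agent.Lib.Helper18.WGroup Cfsg.Agent.Lib.Helper18.BNChev Cfsg.Agent.Lib.Helper18.Mono
  Cfsg.Agent.Lib.Helper18.BNPairC Cfsg.Agent.Lib.Helper18.UOrd Cfsg.Agent.Lib.Helper18.Cox
  Cfsg.Agent.Lib.Helper18.Long Cfsg.Agent.Lib.Helper18.Core Cfsg.Agent.Lib.Helper18.Conj
  Cfsg.Agent.Lib.Helper18.RFact Cfsg.Agent.Lib.Helper18.BNCell Cfsg.Agent.Lib.Helper18.Vec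
  Cfsg.Agent.Lib.Helper18.XMat Cfsg.Agent.Lib.Helper18.Cells Cfsg.Agent.Lib.Helper18.Cox2
  Cfsg.Agent.Lib.Helper18.Cells2 Cfsg.Agent.Lib.Helper18.Cox3 Cfsg.Agent.Lib.Helper18.HOrder
  Cfsg.Agent.Lib.Helper18.HOrderTab Cfsg.Agent.Lib.Helper18.Tri Cfsg.Agent.Lib.Helper18.Par
  Cfsg.Agent.Lib.Helper18.Par2 Cfsg.Agent.Lib.Helper18.Par3

variable {A : FData} {D : ChevalleyDatum} {F : Type*} [Field F] {X : WD} {m : ℕ → ℕ → ℤ}
  {w : ℕ → ℤ} {N : ℕ} {ord rnk : ℕ → ℕ} {bz : ℕ → ℕ → ℤ} {w' : ℕ → ℤ} {c : ℤ} {fw : ℕ → ℕ → ℤ}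

section

variable (hC : CFacts A D X m w) (hR : RFacts A X) (hU : UFacts A w' N ord rnk bz) (hn : 0 < A.n)
  (hDs : DFacts A) (hJf : JFacts A c fw)
  (hadd : ∀ r < D.nroots, ∀ t u : F, D.x F r t * D.x F r u = D.x F r (t + u))
  (hinj : ∀ r < D.nroots, ∀ t : F, D.x F r t = 1 → t = 0)

include hC in
theorem par_le_group (J : Set ℕ) : D.parabolicSubgroup F J ≤ D.group F := by
  have hF := hC.af
  unfold ChevalleyDatum.parabolicSubgroup
  refine sup_le (borelSubgroup_le hF F) ?_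
  rw [Subgroup.closure_le]
  rintro g ⟨j, hj, hjl, hg⟩
  have hjl' : j < A.rank := by rw [← hF.agrees.rank_eq]; exact hjl
  have e : g = ng hF F j := Units.ext (by rw [hg, coe_ng hF hjl', simple_eq_fast hF hjl])
  rw [e]
  exact ng_mem_group hC hjl'

include hC hR hU hn hDs hJf hadd hinj in
/-- `N_G(U_J) = P_J`. -/
theorem normalizer_rad (J : Set ℕ) :
    Subgroup.normalizer (D.unipotentRadical F J : Set (GL D.Idx F)) ⊓ D.group F =
      D.parabolicSubgroup F J := by
  have hF := hC.af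
  have hPN := par_le_normalizer hC hR hU hn hadd (F := F) J
  apply le_antisymm
  · rintro g ⟨hgN, hgG⟩
    obtain ⟨b, hb, n, hn', b', hb', rfl⟩ := bruhat hC hadd hinj hgG
    have hbP : b ∈ D.parabolicSubgroup F J := le_sup_left (b := Subgroup.closure _) hb
    have hb'P : b' ∈ D.parabolicSubgroup F J := le_sup_left (b := Subgroup.closure _) hb'
    obtain ⟨wd, hwd, h, hh, rfl⟩ := N_word hC hn'
    have hhP : h ∈ D.parabolicSubgroup F J := H_le_par J hh
    -- the word normalizes `U_J`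
    have hn₀ : nw hF F (plain wd) ∈
        Subgroup.normalizer (D.unipotentRadical F J : Set (GL D.Idx F)) := by
      have h1 : nw hF F (plain wd) =
          b⁻¹ * (b * (nw hF F (plain wd) * h) * b') * b'⁻¹ * h⁻¹ := by group
      rw [h1]
      exact Subgroup.mul_mem _ (Subgroup.mul_mem _ (Subgroup.mul_mem _
        (Subgroup.inv_mem _ (hPN hbP)) hgN) (Subgroup.inv_mem _ (hPN hb'P)))
        (Subgroup.inv_mem _ (hPN hhP))
    -- its permutation maps the positive roots outside of the subsystem to positive roots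
    have hst : ∀ r : Fin A.n, (rs hC hR hU hn).pos r → ¬ (rs hC hR hU hn).inJ J r →
        (rs hC hR hU hn).pos ((rs hC hR hU hn).wprod wd r) := by
      intro r hpos hJ
      obtain ⟨ε, hε, he⟩ := nw_conj (F := F) hF hC.wf (plain wd) (plain_lt hwd) r.isLt
      have h1 := he 1
      rw [plain_fst] at h1
      have h2 : xg hF F r.val 1 ∈ D.unipotentRadical F J := xg_mem_rad hF r.isLt hpos hJ 1
      have h3 := (Subgroup.mem_set_normalizer_iff.mp hn₀ _).mp h2
      rw [h1] at h3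
      have hlt : wperm X wd r.val < A.n := wperm_lt hC.wf hwd r.isLt
      have h4 : UTri (fun b : D.Idx => lamE A (wJ A fw J) (enc D b))
          ((xg hF F (wperm X wd r.val) (ε * 1) : GL D.Idx F) : Matrix D.Idx D.Idx F) :=
        rad_le_utri hC hJf J h3
      rw [coe_xg hF (lt_nroots hF hlt)] at h4
      have h5 := level_pos_of_tri hF hU hlt (by simpa using hε) h4.1
      have h6 := (pos_of_lamJ hC.mf hJf J hlt h5).1
      rw [rs_pos_iff, wprod_val hC hR hU hn hwd]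
      exact h6
    have hσJ := mem_W_of_stab (rs hC hR hU hn) (triv hC hR hU hn hadd hinj) J _
      ((rs hC hR hU hn).wprod_mem hwd) hst
    obtain ⟨wd', hwd', e⟩ := exists_word _ hσJ
    have hwd'' : ∀ i ∈ wd', i < A.rank := fun i hi => (hwd' i hi).1
    have hid : ∀ r < A.n, wperm X ((plain wd' ++ winv (plain wd)).map Prod.fst) r = r := by
      intro r hr
      rw [cmp_fst, wperm_append]
      have hr' : wperm X wd.reverse r < A.n :=
        wperm_lt hC.wf (fun i hi => hwd i (List.mem_reverse.mp hi)) hr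
      have e1 := wprod_val hC hR hU hn hwd'' ⟨_, hr'⟩
      rw [e, wprod_val hC hR hU hn hwd] at e1
      rw [← e1]
      exact wperm_reverse' hC.wf hwd hr
    have h7 := mem_H_of_id hC hR hU hn hadd hinj (cmp_lt hwd hwd'') hid
    rw [nw_cmp hF] at h7
    have h8 : nw hF F (plain wd) ∈ D.parabolicSubgroup F J := by
      have h9 : nw hF F (plain wd) =
          (nw hF F (plain wd') * (nw hF F (plain wd))⁻¹)⁻¹ * nw hF F (plain wd') := by group
      rw [h9]
      exact Subgroup.mul_mem _ (Subgroup.inv_mem _ (H_le_par J h7)) (nwJ_mem hC hwd')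
    exact Subgroup.mul_mem _ (Subgroup.mul_mem _ hbP (Subgroup.mul_mem _ h8 hhP)) hb'P
  · exact le_inf hPN (par_le_group hC J)

end

end Cfsg.Agent.Lib.Helper18.Par4
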