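import Mathlib
import Cfsg.Agent.Lib.Helper18.Ree17
import Cfsg.Agent.Lib.Helper18.Ree20

set_option autoImplicit false
set_option linter.unusedSimpArgs false
set_option linter.unusedSectionVars false
set_option linter.unusedVariables false

/-!
# The small Ree groups are generated by two elements
-/

namespace Cfsg.Agent.Lib.Helper18.Ree27

open Cfsg Cfsg.Lie Cfsg.Agent.Lib.Helper18 Cfsg.Agent.Lib.Helper18.Fast
  Cfsg.Agent.Lib.Helper18.Facts Cfsg.Agent.Lib.Helper18.WGroup Cfsg.Agent.Lib.Helper18.BNPairC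
  Cfsg.Agent.Lib.Helper18.UOrd Cfsg.Agent.Lib.Helper18.UNF Cfsg.Agent.Lib.Helper18.Units
  Cfsg.Agent.Lib.Helper18.Sub Cfsg.Agent.Lib.Helper18.Core Cfsg.Agent.Lib.Helper18.Ree1
  Cfsg.Agent.Lib.Helper18.Ree2 Cfsg.Agent.Lib.Helper18.Ree3 Cfsg.Agent.Lib.Helper18.Ree4
  Cfsg.Agent.Lib.Helper18.Ree5 Cfsg.Agent.Lib.Helper18.Ree6 Cfsg.Agent.Lib.Helper18.Ree7
  Cfsg.Agent.Lib.Helper18.Ree10 Cfsg.Agent.Lib.Helper18.Ree11 Cfsg.Agent.Lib.Helper18.Ree12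
  Cfsg.Agent.Lib.Helper18.Ree13 Cfsg.Agent.Lib.Helper18.Ree14
  Cfsg.Agent.Lib.Helper18.Torus Cfsg.Agent.Lib.Helper18.XMat Cfsg.Agent.Lib.Helper18.Grade

variable {K : Type*} [Field K]

theorem chi6 (c : ℕ → K) : chi FTabG2.fd c 6 = (c 0 ^ 3)⁻¹ * c 1 ^ 2 := by
  have e0 : carE FTabG2.fd 0 6 = -3 := by decide
  have e1 : carE FTabG2.fd 1 6 = 2 := by decide
  have hr : FTabG2.fd.rank = 2 := by decide
  unfold chi chiN
  rw [hr, Finset.prod_range_succ, Finset.prod_range_succ, Finset.prod_range_zero, e0, e1]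
  simp [zpow_neg, zpow_ofNat]

theorem chi7 (c : ℕ → K) : chi FTabG2.fd c 7 = c 0 ^ 2 * (c 1)⁻¹ := by
  have e0 : carE FTabG2.fd 0 7 = 2 := by decide
  have e1 : carE FTabG2.fd 1 7 = -1 := by decide
  have hr : FTabG2.fd.rank = 2 := by decide
  unfold chi chiN
  rw [hr, Finset.prod_range_succ, Finset.prod_range_succ, Finset.prod_range_zero, e0, e1]
  simp [zpow_neg, zpow_ofNat]

section char3

variable [CharP K 3] {φ : K →+* K} (h3 : ∀ x : K, φ (φ x) ^ 3 = x)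

include h3 in
/-- The group law of `U¹`. -/
theorem reeU_mul (t u v t' u' v' : K) : reeU φ t u v * reeU φ t' u' v' =
    reeU φ (t + t') (u + u' - t * φ t' ^ 3)
      (v + v' - u * t' - t ^ 2 * φ t' ^ 3 + t * t' * φ t' ^ 3) := by
  have h30 : (3 : K) = 0 := Ree20.three_eq_zero
  rw [reeU_eq, reeU_eq, reeU_eq, Ree20.nf'_mul]
  congr 1
  · rw [map_add]
  · simp only [map_add, map_sub, map_mul, map_pow, h3]
    ring
  · simp only [map_add, map_sub, map_mul, map_pow, h3]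
    ring
  · rw [map_add, cube_add]
    ring
  · rw [map_add, cube_add]
    linear_combination (-(t * t' * (φ t' ^ 3 + φ t ^ 3))) * h30

include h3 in
theorem reeU_mul_zero (t u v u' v' : K) :
    reeU φ t u v * reeU φ 0 u' v' = reeU φ t (u + u') (v + v') := by
  rw [reeU_mul h3]
  congr 1 <;> simp

include h3 in
/-- The action of `H¹` on `U¹`. -/
theorem eta_mul_reeU {s : K} (hs : s ≠ 0) (t u v : K) :
    eta φ s * reeU φ t u v =
      reeU φ (s ^ 2 / φ s ^ 3 * t) (φ s ^ 3 / s * u) (s * v) * eta φ s := by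
  have hφs : φ s ≠ 0 := (map_ne_zero φ).mpr hs
  have hss : φ (φ s) ^ 3 = s := h3 s
  rw [reeU_eq, reeU_eq, eta_mul_nf' φ hs, chi6, chi7, Ree14.chi8, chi9, Ree14.chi10, chi11]
  simp only [cc, if_pos, one_ne_zero, if_false]
  congr 2
  · field_simp
  · simp only [map_mul, map_div₀, map_pow, hss]
    field_simp
  · simp only [map_mul, map_div₀, map_pow, hss]
    field_simp
  · simp only [map_mul, map_div₀, map_pow, hss]
  · simp only [map_mul, map_div₀, map_pow, hss]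
    field_simp
  · simp only [map_mul, map_div₀, map_pow, hss]
    field_simp

include h3 in
/-- `H¹`-orbits and commutators fill `U¹`: a subgroup containing `H¹` and an element of `U¹`
outside `[U¹, U¹]` contains `U¹`. -/
theorem spread (X : Subgroup (GL chevG2.Idx K)) (hH : ∀ s : K, s ≠ 0 → eta φ s ∈ X)
    {t₀ u₀ v₀ : K} (ht₀ : t₀ ≠ 0) (h₀ : reeU φ t₀ u₀ v₀ ∈ X)
    {ζ : K} (hζ : φ ζ ^ 3 ≠ ζ) : ∀ t u v : K, reeU φ t u v ∈ X := by
  have h30 : (3 : K) = 0 := Ree20.three_eq_zero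
  have hζ0 : ζ ≠ 0 := by
    rintro rfl
    apply hζ
    simp
  -- difference of two elements with the same first coordinate
  have D : ∀ {t u v u' v' : K}, reeU φ t u v ∈ X → reeU φ t u' v' ∈ X →
      reeU φ 0 (u' - u) (v' - v) ∈ X := by
    intro t u v u' v' h1 h2
    have e : reeU φ t u v * reeU φ 0 (u' - u) (v' - v) = reeU φ t u' v' := by
      rw [reeU_mul_zero h3]
      congr 1 <;> ring
    have e2 : reeU φ 0 (u' - u) (v' - v) = (reeU φ t u v)⁻¹ * reeU φ t u' v' :=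
      eq_inv_mul_of_mul_eq e
    rw [e2]
    exact X.mul_mem (X.inv_mem h1) h2
  -- conjugation by `H¹`
  have C : ∀ {t u v : K}, reeU φ t u v ∈ X → ∀ s : K, s ≠ 0 →
      reeU φ (s ^ 2 / φ s ^ 3 * t) (φ s ^ 3 / s * u) (s * v) ∈ X := by
    intro t u v h1 s hs
    have e : reeU φ (s ^ 2 / φ s ^ 3 * t) (φ s ^ 3 / s * u) (s * v) =
        eta φ s * reeU φ t u v * (eta φ s)⁻¹ := by
      rw [eta_mul_reeU h3 hs, mul_inv_cancel_right]
    rw [e]
    exact X.mul_mem (X.mul_mem (hH s hs) h1) (X.inv_mem (hH s hs))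
  have hone : reeU φ (0 : K) 0 0 ∈ X := by
    rw [Ree17.reeU_zero]
    exact X.one_mem
  -- step 1: every first coordinate occurs
  have S1 : ∀ t : K, ∃ u v : K, reeU φ t u v ∈ X := by
    intro t
    by_cases ht : t = 0
    · exact ⟨0, 0, by rw [ht]; exact hone⟩
    · have hw : t / t₀ ≠ 0 := div_ne_zero ht ht₀
      have hφw : φ (t / t₀) ≠ 0 := (map_ne_zero φ).mpr hw
      have hs : φ (t / t₀) ^ 3 * (t / t₀) ^ 2 ≠ 0 := mul_ne_zero (pow_ne_zero _ hφw) (pow_ne_zero _ hw)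
      have h1 := C h₀ _ hs
      have e : (φ (t / t₀) ^ 3 * (t / t₀) ^ 2) ^ 2 / φ (φ (t / t₀) ^ 3 * (t / t₀) ^ 2) ^ 3 * t₀
          = t := by
        have e1 : φ (φ (t / t₀) ^ 3 * (t / t₀) ^ 2) = t / t₀ * φ (t / t₀) ^ 2 := by
          rw [map_mul, map_pow, map_pow, h3]
        rw [e1]
        field_simp
      rw [e] at h1
      exact ⟨_, _, h1⟩
  -- step 2: an element of `[U¹, U¹]` with non-zero second coordinate
  have S2 : ∃ v : K, reeU φ 0 (φ ζ ^ 3 - ζ) v ∈ X := by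
    obtain ⟨u, v, hy⟩ := S1 ζ
    obtain ⟨u', v', hy'⟩ := S1 1
    have h1 : reeU φ ζ u v * reeU φ 1 u' v' ∈ X := X.mul_mem hy hy'
    have h2 : reeU φ 1 u' v' * reeU φ ζ u v ∈ X := X.mul_mem hy' hy
    rw [reeU_mul h3] at h1 h2
    rw [add_comm 1 ζ] at h2
    have h4 := D h2 h1
    have e : u + u' - ζ * φ 1 ^ 3 - (u' + u - 1 * φ ζ ^ 3) = φ ζ ^ 3 - ζ := by
      rw [map_one]
      ring
    rw [e] at h4
    exact ⟨_, h4⟩
  -- step 3: every second coordinate occurs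
  have P0 : ∃ v : K, reeU φ 0 (0 : K) v ∈ X := ⟨0, hone⟩
  have Padd : ∀ {u u' : K}, (∃ v : K, reeU φ 0 u v ∈ X) → (∃ v : K, reeU φ 0 u' v ∈ X) →
      ∃ v : K, reeU φ 0 (u + u') v ∈ X := by
    rintro u u' ⟨v, h1⟩ ⟨v', h2⟩
    refine ⟨v + v', ?_⟩
    rw [← reeU_mul_zero h3]
    exact X.mul_mem h1 h2
  have Pneg : ∀ {u : K}, (∃ v : K, reeU φ 0 u v ∈ X) → ∃ v : K, reeU φ 0 (-u) v ∈ X := by
    rintro u ⟨v, h1⟩
    have h2 := D h1 hone
    rw [zero_sub] at h2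
    exact ⟨_, h2⟩
  have Psq : ∀ {u : K} (a : K), (∃ v : K, reeU φ 0 u v ∈ X) →
      ∃ v : K, reeU φ 0 (a ^ 2 * u) v ∈ X := by
    rintro u a ⟨v, h1⟩
    by_cases ha : a = 0
    · rw [ha]
      simpa using P0
    · have hφa : φ a ≠ 0 := (map_ne_zero φ).mpr ha
      have hs : φ a ^ 3 * a ≠ 0 := mul_ne_zero (pow_ne_zero _ hφa) ha
      have h2 := C h1 _ hs
      have e : φ (φ a ^ 3 * a) ^ 3 / (φ a ^ 3 * a) = a ^ 2 := by
        have e1 : φ (φ a ^ 3 * a) = a * φ a := by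
          rw [map_mul, map_pow, h3]
        rw [e1]
        field_simp
      rw [e, mul_zero] at h2
      exact ⟨_, h2⟩
  have S3 : ∀ u : K, ∃ v : K, reeU φ 0 u v ∈ X := by
    intro u
    have hd : φ ζ ^ 3 - ζ ≠ 0 := sub_ne_zero.mpr hζ
    have h1 := Padd (Psq (u / (φ ζ ^ 3 - ζ) + 1) S2) (Pneg (Psq (u / (φ ζ ^ 3 - ζ) - 1) S2))
    have e : (u / (φ ζ ^ 3 - ζ) + 1) ^ 2 * (φ ζ ^ 3 - ζ) +
        -((u / (φ ζ ^ 3 - ζ) - 1) ^ 2 * (φ ζ ^ 3 - ζ)) = u := by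
      have e1 : u / (φ ζ ^ 3 - ζ) * (φ ζ ^ 3 - ζ) = u := div_mul_cancel₀ u hd
      linear_combination e1 + u / (φ ζ ^ 3 - ζ) * (φ ζ ^ 3 - ζ) * h30
    rw [e] at h1
    exact h1
  -- step 4: every third coordinate occurs
  have S4 : ∀ w : K, reeU φ 0 0 w ∈ X := by
    intro w
    obtain ⟨u, v, hy⟩ := S1 1
    obtain ⟨v', hz⟩ := S3 w
    have h1 : reeU φ 1 u v * reeU φ 0 w v' ∈ X := X.mul_mem hy hz
    have h2 : reeU φ 0 w v' * reeU φ 1 u v ∈ X := X.mul_mem hz hy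
    rw [reeU_mul_zero h3] at h1
    rw [reeU_mul h3, zero_add] at h2
    have h4 := D h2 h1
    have e : reeU φ 0 (u + w - (w + u - 0 * φ 1 ^ 3))
        (v + v' - (v' + v - w * 1 - 0 ^ 2 * φ 1 ^ 3 + 0 * 1 * φ 1 ^ 3)) = reeU φ 0 0 w := by
      congr 1 <;> ring
    rw [e] at h4
    exact h4
  -- conclusion
  intro t u v
  obtain ⟨u₁, v₁, h1⟩ := S1 t
  obtain ⟨v₂, h2⟩ := S3 (u - u₁)
  have h5 := X.mul_mem (X.mul_mem h1 h2) (S4 (v - v₁ - v₂))
  rw [reeU_mul_zero h3, reeU_mul_zero h3] at h5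
  have e : reeU φ t (u₁ + (u - u₁) + 0) (v₁ + v₂ + (v - v₁ - v₂)) = reeU φ t u v := by
    congr 1 <;> ring
  rw [e] at h5
  exact h5

include h3 in
/-- `s ↦ s² / s^{3θ}` has trivial kernel on `K^×`. -/
theorem chi_t_one {s : K} (hs : s ≠ 0) (h : s ^ 2 = φ s ^ 3) : s = 1 := by
  have h1 : φ s ^ 2 = s := by
    have := congrArg φ h
    rw [map_pow, map_pow, h3] at this
    exact this
  have h2 : s ^ 4 = s ^ 3 := by
    calc s ^ 4 = (s ^ 2) ^ 2 := by ring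
      _ = (φ s ^ 3) ^ 2 := by rw [h]
      _ = (φ s ^ 2) ^ 3 := by ring
      _ = s ^ 3 := by rw [h1]
  have h4 : s ^ 3 * (s - 1) = 0 := by linear_combination h2
  rcases mul_eq_zero.mp h4 with h5 | h5
  · exact absurd (pow_eq_zero_iff (by norm_num) |>.mp h5) hs
  · exact sub_eq_zero.mp h5

variable (S : Sig K φ) {e : ℕ} (hφ : ∀ x, φ x = x ^ e) [Fintype K] {m : ℕ}
  (hK : Fintype.card K = 3 ^ (2 * m + 1)) (he : e = 3 ^ m)

include S hφ h3 hK he in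
/-- The Ree group (`m ≥ 1`) is generated by `h_a(ζ^θ) h_b(ζ)` and `n₀ x`, with `ζ` a generator of
`K^×` and `x ∈ U¹` outside `[U¹, U¹]`. -/
theorem two_gen (hm : 1 ≤ m) : ∃ a b : ↥(twistedG2 K e),
    Subgroup.closure ({a, b} : Set ↥(twistedG2 K e)) = ⊤ := by
  classical
  obtain ⟨ζ, hζ⟩ := IsCyclic.exists_generator (α := Kˣ)
  have hord : orderOf ζ = Fintype.card K - 1 := by
    rw [orderOf_eq_card_of_forall_mem_zpowers hζ, Nat.card_eq_fintype_card, Fintype.card_units]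
  have hζ0 : (ζ : K) ≠ 0 := ζ.ne_zero
  have hepos : 0 < e := by rw [he]; positivity
  have hζ3 : φ (ζ : K) ^ 3 ≠ ζ := by
    intro h
    rw [hφ, ← pow_mul] at h
    have h1 : ζ ^ (e * 3 - 1) = 1 := by
      apply Units.ext
      rw [Units.val_pow_eq_pow_val, Units.val_one]
      have hpos : 1 ≤ e * 3 := by omega
      have h2 : (ζ : K) ^ (e * 3 - 1) * ζ = 1 * ζ := by
        rw [← pow_succ, Nat.sub_add_cancel hpos, h, one_mul]
      exact mul_right_cancel₀ hζ0 h2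
    have h2 := orderOf_dvd_of_pow_eq_one h1
    rw [hord, hK, he] at h2
    have h4 : 3 ^ (m + 1) < 3 ^ (2 * m + 1) := Nat.pow_lt_pow_right (by norm_num) (by omega)
    have h5 : 3 ^ m * 3 = 3 ^ (m + 1) := by ring
    have h6 : 0 < 3 ^ m := by positivity
    have h7 : 3 ^ (2 * m + 1) - 1 ≤ 3 ^ m * 3 - 1 := Nat.le_of_dvd (by omega) h2
    omega
  have hn0G : n0 K ∈ twistedG2 K e := n0_mem_Gam (e_ne he)
  have haG : eta φ (ζ : K) ∈ twistedG2 K e := eta_mem_Gam hφ h3 hK he hζ0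
  refine ⟨⟨eta φ (ζ : K), haG⟩,
    ⟨n0 K * reeU φ 1 0 0, Subgroup.mul_mem _ hn0G (reeU_mem_Gam hφ 1 0 0)⟩, ?_⟩
  generalize hX : (Subgroup.closure ({⟨eta φ (ζ : K), haG⟩,
    ⟨n0 K * reeU φ 1 0 0, Subgroup.mul_mem _ hn0G (reeU_mem_Gam hφ 1 0 0)⟩} :
      Set ↥(twistedG2 K e))) = Xs
  have haX : eta φ (ζ : K) ∈ Xs.map (twistedG2 K e).subtype := by
    refine ⟨⟨eta φ (ζ : K), haG⟩, ?_, rfl⟩
    rw [← hX]
    exact Subgroup.subset_closure (by simp)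
  have hbX : n0 K * reeU φ 1 0 0 ∈ Xs.map (twistedG2 K e).subtype := by
    refine ⟨⟨n0 K * reeU φ 1 0 0, Subgroup.mul_mem _ hn0G (reeU_mem_Gam hφ 1 0 0)⟩, ?_, rfl⟩
    rw [← hX]
    exact Subgroup.subset_closure (by simp)
  generalize hXX : Xs.map (twistedG2 K e).subtype = X at haX hbX
  -- `H¹ ≤ X`
  have hH : ∀ s : K, s ≠ 0 → eta φ s ∈ X := by
    intro s hs
    obtain ⟨k, hk⟩ := Subgroup.mem_zpowers_iff.mp (hζ (Units.mk0 s hs))
    let f : Kˣ →* GL chevG2.Idx K :=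
      { toFun := fun x => eta φ (x : K)
        map_one' := by rw [Units.val_one]; exact eta_one φ
        map_mul' := fun x y => by rw [Units.val_mul]; exact eta_mul φ x.ne_zero y.ne_zero }
    have e1 : eta φ s = f ζ ^ k := by
      rw [← map_zpow, hk]
      rfl
    rw [e1]
    exact X.zpow_mem haX k
  -- an element of `X ∩ U¹` outside `[U¹, U¹]`
  have hh'H : (n0 K)⁻¹ * eta φ (ζ : K) * n0 K ∈ chevG2.diagonalSubgroup K :=
    N_conj_H' n0_mem_N (eta_mem_H φ hζ0)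
  have hh'G : (n0 K)⁻¹ * eta φ (ζ : K) * n0 K ∈ twistedG2 K e :=
    Subgroup.mul_mem _ (Subgroup.mul_mem _ (Subgroup.inv_mem _ hn0G) haG) hn0G
  obtain ⟨s', hs', hh'⟩ := (mem_H_Gam S hφ h3 hK he _).mp ⟨hh'H, hh'G⟩
  have hs'1 : s' ≠ 1 := by
    rintro rfl
    rw [eta_one] at hh'
    have h1 : eta φ (ζ : K) = 1 := by
      calc eta φ (ζ : K) = n0 K * ((n0 K)⁻¹ * eta φ (ζ : K) * n0 K) * (n0 K)⁻¹ := by group
        _ = 1 := by rw [hh']; group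
    have h2 := eta_inj φ hζ0 one_ne_zero (h1.trans (eta_one φ).symm)
    apply hζ3
    rw [h2]
    simp
  have hc : (n0 K * reeU φ 1 0 0)⁻¹ * eta φ (ζ : K) * (n0 K * reeU φ 1 0 0) ∈ X :=
    X.mul_mem (X.mul_mem (X.inv_mem hbX) haX) hbX
  have e1 : (n0 K * reeU φ 1 0 0)⁻¹ * eta φ (ζ : K) * (n0 K * reeU φ 1 0 0) =
      (reeU φ 1 0 0)⁻¹ * (eta φ s' * reeU φ 1 0 0) := by
    rw [← hh']
    group
  rw [e1, eta_mul_reeU h3 hs'] at hc
  have hτ1 : s' ^ 2 / φ s' ^ 3 ≠ 1 := by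
    intro h
    apply hs'1
    apply chi_t_one h3 hs'
    have hφs' : φ s' ^ 3 ≠ 0 := pow_ne_zero _ ((map_ne_zero φ).mpr hs')
    exact (div_eq_one_iff_eq hφs').mp h
  generalize s' ^ 2 / φ s' ^ 3 = τ at hc hτ1
  have hy : reeU φ (τ - 1) (φ (τ - 1) ^ 3) (φ (τ - 1) ^ 3 - (τ - 1) * φ (τ - 1) ^ 3) ∈ X := by
    have e2 : reeU φ 1 0 0 *
        reeU φ (τ - 1) (φ (τ - 1) ^ 3) (φ (τ - 1) ^ 3 - (τ - 1) * φ (τ - 1) ^ 3) =
        reeU φ (τ * 1) (φ s' ^ 3 / s' * 0) (s' * 0) := by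
      rw [reeU_mul h3]
      congr 1 <;> ring
    rw [eq_inv_mul_of_mul_eq e2]
    have h5 := X.mul_mem hc (X.inv_mem (hH s' hs'))
    have e3 : (reeU φ 1 0 0)⁻¹ * (reeU φ (τ * 1) (φ s' ^ 3 / s' * 0) (s' * 0) * eta φ s') *
        (eta φ s')⁻¹ = (reeU φ 1 0 0)⁻¹ * reeU φ (τ * 1) (φ s' ^ 3 / s' * 0) (s' * 0) := by
      group
    rw [e3] at h5
    exact h5
  have hall := spread h3 X hH (sub_ne_zero.mpr hτ1) hy hζ3
  have hn0 : n0 K ∈ X := by
    have h5 := X.mul_mem hbX (X.inv_mem (hall 1 0 0))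
    rwa [mul_inv_cancel_right] at h5
  rw [eq_top_iff]
  intro g _
  have hgX : (g : GL chevG2.Idx K) ∈ X := by
    rcases Gam_cases S hφ h3 hK he g.2 with ⟨t, u, v, s, hs, e⟩ | ⟨t, u, v, s, t', u', v', hs, e⟩
    · rw [e]
      exact X.mul_mem (hall _ _ _) (hH s hs)
    · rw [e]
      exact X.mul_mem (X.mul_mem (X.mul_mem (hall _ _ _) hn0) (hH s hs)) (hall _ _ _)
  rw [← hXX] at hgX
  obtain ⟨g', hg', e⟩ := hgX
  have e' : g' = g := Subtype.ext e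
  rw [← e']
  exact hg'

end char3

end Cfsg.Agent.Lib.Helper18.Ree27
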