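import Mathlib
import Cfsg.Agent.Lib.Helper18.Count

set_option autoImplicit false
set_option linter.unusedSimpArgs false
set_option linter.unusedSectionVars false
set_option linter.unusedVariables false

namespace Cfsg.Agent.Lib.Helper18.Syl

open Cfsg Cfsg.Lie Cfsg.Agent.Lib.Helper18.Fast Cfsg.Agent.Lib.Helper18.Grade
  Cfsg.Agent.Lib.Helper18.Facts Cfsg.Agent.Lib.Helper18.AllRoots Cfsg.Agent.Lib.Helper18.Loop
  Cfsg.Agent.Lib.Helper18.Weyl Cfsg.Agent.Lib.Helper18.RootSys Cfsg.Agent.Lib.Helper18.Orbit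
  Cfsg.Agent.Lib.Helper18.Units Cfsg.Agent.Lib.Helper18.Sub Cfsg.Agent.Lib.Helper18.Norm
  Cfsg.Agent.Lib.Helper18.HAll Cfsg.Agent.Lib.Helper18.Torus Cfsg.Agent.Lib.Helper18.Pos
  Cfsg.Agent.Lib.Helper18.WGroup Cfsg.Agent.Lib.Helper18.BNChev Cfsg.Agent.Lib.Helper18.Mono
  Cfsg.Agent.Lib.Helper18.BNPairC Cfsg.Agent.Lib.Helper18.UOrd Cfsg.Agent.Lib.Helper18.Cox
  Cfsg.Agent.Lib.Helper18.Long Cfsg.Agent.Lib.Helper18.Core Cfsg.Agent.Lib.Helper18.Conj
  Cfsg.Agent.Lib.Helper18.RFact Cfsg.Agent.Lib.Helper18.BNCell Cfsg.Agent.Lib.Helper18.Vec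
  Cfsg.Agent.Lib.Helper18.XMat Cfsg.Agent.Lib.Helper18.Cells Cfsg.Agent.Lib.Helper18.Cox2
  Cfsg.Agent.Lib.Helper18.Cells2 Cfsg.Agent.Lib.Helper18.Count

variable {A : FData} {D : ChevalleyDatum} {F : Type*} [Field F] {X : WD} {m : ℕ → ℕ → ℤ}
  {w : ℕ → ℤ} {N : ℕ} {ord rnk : ℕ → ℕ} {bz : ℕ → ℕ → ℤ} {w' : ℕ → ℤ}

section

variable (hC : CFacts A D X m w) (hR : RFacts A X) (hU : UFacts A w' N ord rnk bz) (hn : 0 < A.n)
  (hadd : ∀ r < D.nroots, ∀ t u : F, D.x F r t * D.x F r u = D.x F r (t + u))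
  (hinj : ∀ r < D.nroots, ∀ t : F, D.x F r t = 1 → t = 0)

include hC hR hU hn hadd hinj in
open Classical in
/-- The characteristic does not divide the Poincare sum of the Weyl group. -/
theorem not_dvd_sum [Fintype F] {p : ℕ} (hp : p.Prime) (hq : p ∣ Fintype.card F) :
    ¬ p ∣ ∑ σ ∈ Finset.univ.filter (fun σ => σ ∈ (rs hC hR hU hn).W Set.univ),
      Fintype.card F ^ (rs hC hR hU hn).ell σ := by
  intro hdvd
  have h1 : (1 : Equiv.Perm (Fin A.n)) ∈
      Finset.univ.filter (fun σ => σ ∈ (rs hC hR hU hn).W Set.univ) := by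
    simp [Subgroup.one_mem]
  rw [← Finset.add_sum_erase _ _ h1, ell_one, pow_zero] at hdvd
  have h2 : p ∣ ∑ σ ∈ (Finset.univ.filter
      (fun σ => σ ∈ (rs hC hR hU hn).W Set.univ)).erase 1,
      Fintype.card F ^ (rs hC hR hU hn).ell σ := by
    apply Finset.dvd_sum
    intro σ hσ
    rw [Finset.mem_erase, Finset.mem_filter] at hσ
    have hpos : (rs hC hR hU hn).ell σ ≠ 0 := by
      intro h0
      unfold RS.ell at h0
      rw [(rs hC hR hU hn).ell'_eq_zero_iff] at h0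
      have := triv hC hR hU hn hadd hinj σ⁻¹ (Subgroup.inv_mem _ hσ.2.2) h0
      exact hσ.1 (inv_eq_one.mp this)
    exact dvd_pow hq hpos
  have h3 : p ∣ 1 := (Nat.dvd_add_left h2).mp hdvd
  exact hp.one_lt.ne' (Nat.dvd_one.mp h3)

include hC hR hU hn hadd hinj in
/-- `U` is a Sylow `p`-subgroup of the Chevalley group in characteristic `p`. -/
theorem exists_sylow [Fintype F] (p : ℕ) [Fact p.Prime] [CharP F p] (d : ℕ)
    (hd : d * Nat.card (D.diagonalSubgroup F) = (Fintype.card F - 1) ^ D.rank) :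
    ∃ P : Sylow p ↥(D.group F),
      (P : Subgroup ↥(D.group F)) = (D.posUnipotent F).subgroupOf (D.group F) := by
  classical
  obtain ⟨f, hp, hq⟩ := FiniteField.card F p
  have hpq : p ∣ Fintype.card F := by
    rw [hq]
    exact dvd_pow_self p (PNat.ne_zero f)
  have hG := card_group hC hR hU hn hadd hinj (F := F)
  rw [card_borel hC hU hadd] at hG
  have hpS := not_dvd_sum hC hR hU hn hadd hinj hp hpq
  have hpH : ¬ p ∣ Nat.card (D.diagonalSubgroup F) := by
    intro hdvd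
    have h1 : p ∣ (Fintype.card F - 1) ^ D.rank := by
      rw [← hd]
      exact Dvd.dvd.mul_left hdvd d
    have h2 : p ∣ Fintype.card F - 1 := hp.dvd_of_dvd_pow h1
    have h4 : 1 ≤ Fintype.card F := Fintype.card_pos
    have h5 : p ∣ 1 := by
      have := Nat.dvd_sub hpq h2
      rwa [Nat.sub_sub_self h4] at this
    exact hp.one_lt.ne' (Nat.dvd_one.mp h5)
  have hcardU : Nat.card ((D.posUnipotent F).subgroupOf (D.group F)) = Fintype.card F ^ N := by
    rw [← card_U hC hadd hU]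
    exact Nat.card_congr (Subgroup.subgroupOfEquivOfLe (posUnipotent_le D F)).toEquiv
  have hfact : (Nat.card ↥(D.group F)).factorization p = f * N := by
    rw [hG]
    have hS0 : (∑ σ ∈ Finset.univ.filter (fun σ => σ ∈ (rs hC hR hU hn).W Set.univ),
        Fintype.card F ^ (rs hC hR hU hn).ell σ) ≠ 0 :=
      fun h => hpS (by rw [h]; exact dvd_zero p)
    have hH0 : Nat.card (D.diagonalSubgroup F) ≠ 0 :=
      fun h => hpH (by rw [h]; exact dvd_zero p)
    have hq0 : Fintype.card F ^ N ≠ 0 := pow_ne_zero _ Fintype.card_ne_zero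
    rw [Nat.factorization_mul hS0 (mul_ne_zero hq0 hH0), Nat.factorization_mul hq0 hH0]
    simp only [Finsupp.add_apply]
    rw [Nat.factorization_eq_zero_of_not_dvd hpS, Nat.factorization_eq_zero_of_not_dvd hpH, hq,
      ← pow_mul, hp.factorization_pow]
    simp
  refine ⟨Sylow.ofCard _ ?_, Sylow.coe_ofCard _ _⟩
  rw [hcardU, hfact, hq, ← pow_mul]

end

end Cfsg.Agent.Lib.Helper18.Syl
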